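import Cfsg.Agent.H192.Af.Grp

set_option autoImplicit false
set_option linter.style.haveILetI false
set_option linter.unusedSectionVars false

namespace Cfsg.Agent.H192.Af

open Module Cfsg.Agent.H717.FieldOf

universe u v

section res

variable {V : Type u} [AddCommGroup V] {R S : Subring (AddMonoid.End V)}

/-- restriction of scalars of a submodule -/
def resU (h : R ≤ S) (W : Submodule S V) : Submodule R V where
  carrier := W
  add_mem' := W.add_mem
  zero_mem' := W.zero_mem
  smul_mem' r _ hx := W.smul_mem (Subring.inclusion h r) hx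

/-- the identity -/
def resE (h : R ≤ S) (W : Submodule S V) : resU h W ≃+ W where
  toFun x := ⟨x.1, x.2⟩
  invFun x := ⟨x.1, x.2⟩
  left_inv _ := rfl
  right_inv _ := rfl
  map_add' _ _ := rfl

theorem resE_smul (h : R ≤ S) (W : Submodule S V) (r : R) (x : resU h W) :
    resE h W (r • x) = Subring.inclusion h r • resE h W x := rfl

theorem incl_smul (h : R ≤ S) (r : R) (x : V) : Subring.inclusion h r • x = r • x := rfl

end res

variable {V : Type u} [AddCommGroup V] {H : Type v} [Group H] [DistribMulAction H V] [Finite V] [FaithfulSMul H V]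

/-- **the dimension doubles** -/
theorem two_mul_le [Nontrivial V] {M K : Subgroup H} (hMK : M ≤ K) (hM : Homog V M) (hK : Homog V K)
    (W₁ : Submodule (KA V M) V) [IsSimpleModule (KA V M) W₁] (W₃ : Submodule (KA V K) V)
    [IsSimpleModule (KA V K) W₃] {a b : H} (ha : a ∈ K) (hb : b ∈ K) (hab : a * b ≠ b * a)
    (haM : ∀ x ∈ M, a * x = x * a) (hbM : ∀ x ∈ M, b * x = x * b) :
    2 * bb (KA V M) W₁ ≤ bb (KA V K) W₃ := by
  classical
  -- `W₃` as a submodule for `M`
  let U : Submodule (KA V M) V := resU (KA_mono hMK) W₃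
  haveI := hM.1
  have hiso : IsIsotypicOfType (KA V M) V W₁ := hM.2 W₁
  have hisoU : IsIsotypicOfType (KA V M) U W₁ := hiso.of_injective U.subtype U.injective_subtype
  obtain ⟨k, ⟨e⟩⟩ := hisoU.linearEquiv_fun
  refine two_mul_bb_le' (R₁ := KA V M) (R₃ := KA V K) (W₁ := W₁) (W₃ := W₃) (U := U)
    (Subring.inclusion (KA_mono hMK)) (resE (KA_mono hMK) W₃) (resE_smul (KA_mono hMK) W₃) (k := k) e
    (el ha) (el hb) ?_ ?_ ?_
  · intro r x
    apply Subtype.ext
    rw [Submodule.coe_smul, Submodule.coe_smul, Submodule.coe_smul, Submodule.coe_smul, el_smul, el_smul,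
      incl_smul, incl_smul]
    exact map_KA (dl V a) (fun h hh x => by
      show a • h • x = h • a • x
      rw [← mul_smul, ← mul_smul, haM h hh]) r x
  · intro r x
    apply Subtype.ext
    rw [Submodule.coe_smul, Submodule.coe_smul, Submodule.coe_smul, Submodule.coe_smul, el_smul, el_smul,
      incl_smul, incl_smul]
    exact map_KA (dl V b) (fun h hh x => by
      show b • h • x = h • b • x
      rw [← mul_smul, ← mul_smul, hbM h hh]) r x
  · by_contra hcon
    push Not at hcon
    apply hab
    obtain ⟨m, hm, ⟨e3⟩⟩ := hK.exists_equiv W₃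
    apply FaithfulSMul.eq_of_smul_eq_smul (α := V)
    intro y
    rw [mul_smul, mul_smul]
    apply e3.injective
    funext i
    have h1 : ∀ (r : KA V K) (z : V), e3 (r • z) i = r • e3 z i := fun r z => by rw [map_smul]; rfl
    have h2 : a • b • y = (el ha : KA V K) • (el hb : KA V K) • y := rfl
    have h3 : b • a • y = (el hb : KA V K) • (el ha : KA V K) • y := rfl
    rw [h2, h3, h1, h1, h1, h1, hcon]


end Cfsg.Agent.H192.Af
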