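import Cfsg.Agent.H192.Af.Core
import Cfsg.Agent.H69.Af.Clif
import Cfsg.Agent.H69.Af.Blk

/-!
# S5731: the affine case for irreducible modules
-/

set_option autoImplicit false

namespace Cfsg.Agent.H192.Af

universe u v

/-- **affine groups**: `H` acts faithfully and irreducibly on `V` of exponent `p`, some `h ≠ 1` has a non-zero fixed
vector, `|V|` large: then the target holds. -/
theorem affine {LP : ∀ (_ : ℕ) (T : Type v) [Group T], Prop} (hBN : BNCase.{u, v} LP) (hSm : SmallCase.{u, v} LP)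
    (hdvd : ∀ (p : ℕ) (T : Type v) [Group T] [Finite T] [IsSimpleGroup T], p.Prime → LP p T → p ∣ Nat.card T) :
    ∃ N : ℕ, ∀ (p : ℕ) (V : Type u) [AddCommGroup V] [Finite V] (H : Type v) [Group H] [Finite H]
    [DistribMulAction H V] [FaithfulSMul H V], p.Prime → (∀ w : V, p • w = 0) →
    (∀ U : AddSubgroup V, (∀ (h : H), ∀ w ∈ U, h • w ∈ U) → U = ⊥ ∨ U = ⊤) → N ≤ Nat.card V →
    (∃ h : H, h ≠ 1 ∧ fixc V h ≠ 1) → Tgt V H := by
  obtain ⟨N1, h1⟩ := core.{u, v} hBN hSm hdvd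
  obtain ⟨N2, h2⟩ := Cfsg.Agent.H69.Af.tgt_of_blocks.{u, v}
  refine ⟨max (max N1 N2) 2, fun p V _ _ H _ _ _ _ hp hpV hirr hN hne => ?_⟩
  haveI : Nontrivial V := by
    have h2 : 2 ≤ Nat.card V := le_trans (le_max_right _ _) hN
    rw [← Finite.one_lt_card_iff_nontrivial]; omega
  rcases Cfsg.Agent.H69.Af.homog_or_blocks (H := H) hp hpV hirr with h | ⟨k, U, hk, hi, ht, hU, hp1, htr⟩
  · exact h1 p V H hp hpV h (le_trans (le_trans (le_max_left _ _) (le_max_left _ _)) hN) hne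
  · exact h2 p V H hp hpV hirr (le_trans (le_trans (le_max_right _ _) (le_max_left _ _)) hN) hne k U hk hi ht hU hp1 htr

end Cfsg.Agent.H192.Af
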